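import Cfsg.Agent.TwM.Loc
import Cfsg.Agent.Tw.OutF4
import Cfsg.Agent.Chev.Cent3
import Cfsg.Agent.Tw.InvTF4

set_option autoImplicit false

/-! The `2`-part of the multiplier of `²F₄(q)`, `q ≥ 8`. -/

namespace Cfsg.Agent.TwM

open Subgroup Cfsg.Agent.Cover Cfsg.Lie Cfsg.Lie.ChevalleyDatum Cfsg.Agent.Chev Cfsg.Agent.Tw Equiv
open scoped commutatorElement

section
variable {E : Type*} [Group E] {D : ChevalleyDatum} {C : Cert D} {F : Type*} [Field F] {G : Type*} [Group G]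
  {S : Sys C F G} {T : Stb S} {θ : E →* G} {K : Subgroup G} {f : (Nd D → ℤ) →ₗ[ℤ] ℤ}

theorem commute_Up (p : ℕ) [CharP F p] {A B : List ℕ} (h : ∀ a ∈ A, ∀ b ∈ B, commIn D p [] a b = true) {u v : G}
    (hu : u ∈ S.U {r | (r : ℕ) ∈ A}) (hv : v ∈ S.U {r | (r : ℕ) ∈ B}) : Commute u v :=
  S.U_induction (P := fun u => Commute u v) (Commute.one_left v) (fun a ha t _ _ ih => Commute.mul_left
    (S.U_induction (P := fun v => Commute (S.x a t) v) (Commute.one_right _)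
      (fun b hb s _ _ ih => Commute.mul_right (by
        have := S.comm_mem_of_in p (h a ha b hb) t s
        simp only [List.not_mem_nil, Set.ofPred_false, S.U_empty, mem_bot] at this
        rw [commute_iff_eq, ← inv_mul_eq_one, mul_inv_rev, ← mul_assoc, this]) ih) hv) ih) hu

variable (C f) in
/-- `A` consists of `r`, `s` and `B` -/
def Top (r s : Rt D) (A B : List ℕ) : Prop := 0 < f (C.rc r) ∧ f (C.rc s) < 2 * f (C.rc r) ∧
  (∀ a : Rt D, (a : ℕ) ∈ A → ∀ b : Rt D, (b : ℕ) ∈ A → ∀ u : Rt D, (∀ i, C.rc u i = C.rc a i + C.rc b i) → (u : ℕ) ∈ A) ∧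
  ∀ x : Rt D, (x : ℕ) ∈ A → f (C.rc r) ≤ f (C.rc x) ∧ ((x : ℕ) ∈ B ∨ x = r ∨ x = s)

instance instDecidableTop (r s : Rt D) (A B : List ℕ) : Decidable (Top C f r s A B) := by unfold Top; infer_instance

theorem Top.mem {r : Rt D} {A B : List ℕ} (h : Top C f r (T.ρ r) A B) (hf : Adm T f) {u : G} (hu : u ∈ S.U {r | (r : ℕ) ∈ A})
    (e : T.σ u = u) (h0 : S.cd r u = 0) : u ∈ S.U {r | (r : ℕ) ∈ B} := by
  obtain ⟨h1, h2, h3, h4⟩ := h
  refine peel h1.le (fun a ha b hb u e => h3 a ha b hb u (congrFun e)) (Cert.nil_of_fun f fun x hx => h1.trans_le (h4 x hx).1)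
    (fun x hx => (h4 x hx).1) hu fun x hx => (h4 x hx).2.imp_right ?_
  rintro (rfl | rfl)
  exacts [⟨by omega, h0⟩, ⟨h2, by
    rw [cd_fix h1 (fun s hs => (hf.2.2 r h1 s hs).1) (S.U_mono (fun x hx => (h4 x hx).1) hu) e, h0, map_zero, mul_zero]⟩]

theorem Top.le {r s : Rt D} {A B : List ℕ} (h : Top C f r s A B) : XL S θ A ≤ Ul S θ f (f (C.rc r)) :=
  comap_mono (S.U_mono fun x hx => (h.2.2.2 x hx).1)

theorem Top.crd {r s : Rt D} {A B : List ℕ} (h : Top C f r s A B) : Crd S θ (XL S θ A) r :=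
  crd_U h.1.le (fun x hx => (h.2.2.2 x hx).1) (by have := h.1; omega)

theorem Top.eq_one {r : Rt D} {A : List ℕ} (h : Top C f r (T.ρ r) A []) (hf : Adm T f) {u : G} (hu : u ∈ S.U {r | (r : ℕ) ∈ A})
    (e : T.σ u = u) (h0 : S.cd r u = 0) : u = 1 := by simpa [S.U_empty] using h.mem hf hu e h0

theorem covers_of_one {r : Rt D} (hr : 0 < f (C.rc r)) {A : Subgroup E} (h1 : A ≤ Ul S θ f (f (C.rc r)))
    (h2 : ∀ t, θ t ∈ S.H → ∀ a ∈ A, t * a * t⁻¹ ∈ A) {a : E} (ha : a ∈ A) (h3 : S.cd r (θ a) ≠ 0) {e : Rt D → ℤ}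
    (h4 : Tor S θ e) (h5 : e r = 1) : Covers S θ f r A := ⟨h1, fun u _ => by
  by_cases h : S.cd r (θ u) = 0
  · exact ⟨1, one_mem _, by rw [map_one, S.cd_one, h]⟩
  obtain ⟨t, ht, e⟩ := h4 (Units.mk0 _ (div_ne_zero h h3))
  exact ⟨_, h2 t ht a ha, by
    rw [map_mul, map_mul, map_inv, cd_conj_H S f hr.le (fun _ h => h) (by omega) ht (h1 ha), e, h5]; simp [h3]⟩⟩

variable (S θ) in
/-- the lifted root group centralises an element of its centre -/
def SzP (A B : List ℕ) : Prop := (∃ y ∈ XL S θ A, y ∉ XL S θ B) ∧ ∃ z ∈ XL S θ B, θ z ≠ 1 ∧ ∀ u ∈ XL S θ A, Commute u z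

theorem SzP.conj {A B A' B' : List ℕ} (h : SzP S θ A B) {n : E} {w : Perm (Rt D)} (hn : S.Over (θ n) w) {a : ℕ → ℕ}
    (e : ∀ r : Rt D, (w r : ℕ) = a r) (h1 : (∀ r ∈ A, a r ∈ A') ∧ (∀ r ∈ B, a r ∈ B') ∧
      (∀ r : Rt D, a r ∈ A' → (r : ℕ) ∈ A) ∧ ∀ r : Rt D, a r ∈ B' → (r : ℕ) ∈ B) : SzP S θ A' B' := by
  obtain ⟨⟨y, y1, y2⟩, z, z1, z2, z3⟩ := h
  refine ⟨⟨_, conj_XL hn e h1.1 y1, fun h => y2 (by simpa [mul_assoc] using conj_XL' hn e h1.2.2.2 h)⟩, _,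
    conj_XL hn e h1.2.1 z1, by simpa using z2, fun u hu => ?_⟩
  simpa [mul_assoc] using (z3 _ (conj_XL' hn e h1.2.2.1 hu)).map (MulAut.conj n)

theorem SzP.pair {A B : List ℕ} (h : SzP S θ A B) (hf : Adm T f) (h5 : ∀ e, T.σ (θ e) = θ e) {r s : Rt D}
    (h1 : Top C f r (T.ρ r) A B) (h2 : Top C f s (T.ρ s) B []) {e e' : Rt D → ℤ} (t1 : Tor S θ e) (e1 : e r = 1)
    (t2 : Tor S θ e') (e2 : e' s = 1) (p : ℕ) (Q : Rt D → Subgroup E) : PairOK S θ f p Q r s ∧ PairOK S θ f p Q s r := by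
  obtain ⟨⟨y, y1, y2⟩, z, z1, z2, z3⟩ := h
  have a := covers_of_one h1.1 h1.le (fun t ht a ha => (h1.crd.2 t ht a ha).1) y1 (fun h => y2 (h1.mem hf y1 (h5 y) h)) t1 e1
  have b := covers_of_one (A := centralizer (XL S θ A) ⊓ Ul S θ f (f (C.rc s))) h2.1 inf_le_right (fun t ht a ha =>
    ⟨fun u hu => by
      have := ha.1 _ (h1.crd.2 t⁻¹ (by rw [map_inv]; exact inv_mem ht) u hu).1
      rw [← mul_left_cancel_iff (a := t⁻¹), ← mul_right_cancel_iff (a := t)]; simpa [mul_assoc] using this,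
      nmem (H_norm_Ul _ ht) ha.2⟩) ⟨fun u hu => z3 u hu, h2.le z1⟩ (fun h => z2 (h2.eq_one hf z1 (h5 z) h)) t2 e2
  have c : ⁅XL S θ A, centralizer (XL S θ A) ⊓ Ul S θ f (f (C.rc s))⁆ ≤ ⊥ := commutator_le.2 fun u hu v hv =>
    commutatorElement_eq_one_iff_mul_comm.2 (hv.1 u hu)
  exact ⟨Or.inr ⟨_, _, a, b, c.trans bot_le⟩, Or.inr ⟨_, _, b, a, ((commutator_comm _ _).le.trans c).trans bot_le⟩⟩

end

variable {E : Type*} [Group E] {F : Type*} [Field F] [Finite F] [CharP F 2] {φ : F ≃+* F} {θ : E →* chevF4.group F}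
  {K : Subgroup (chevF4.group F)} {m : ℕ}

/-- the functional -/
def fF : (Nd chevF4 → ℤ) →ₗ[ℤ] ℤ := wf chevF4 [2, 4, 5, 3]

/-- roots -/
abbrev rF (k : ℕ) (h : k < 48 := by decide) : Rt chevF4 := ⟨k, h⟩

theorem admF : Adm (stbF4 φ) fF := by
  change (∀ r s, fF (certF4.rc r) = fF (certF4.rc s) → r = s) ∧ (∀ i, 0 < fF (certF4.rc (certF4.sp i))) ∧
    ∀ r, 0 < fF (certF4.rc r) → ∀ s, fF (certF4.rc r) ≤ fF (certF4.rc s) →
      fF (certF4.rc (barF4 r)) < 2 * fF (certF4.rc (barF4 s)) ∧ fF (certF4.rc (barF4 r)) < 2 * fF (certF4.rc (barF4 s))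
  decide +kernel

theorem liveF (r : Rt chevF4) : Live (stbF4 φ) fF r ↔ (r : ℕ) ∈ [27, 28, 29, 33, 34, 35, 36, 37, 38, 39, 40, 44] := by
  revert r
  change ∀ r, 0 < fF (certF4.rc r) ∧ fF (certF4.rc r) ≤ fF (certF4.rc (barF4 r)) ∧
    fF (certF4.rc r) ≤ fF (certF4.rc (barF4 r)) ↔ _
  decide +kernel

theorem torF (h : Stem K θ) (hK : ∀ g, (stbF4 φ).σ g = g → g ∈ K) (hφ : ∀ t, φ t = t ^ 2 ^ m) (h3 : ∀ t, φ (φ t) ^ 2 = t)
    (γ : Rt chevF4) : Tor (certF4.sys F) θ fun s => certF4.A γ s + 2 ^ m * (lamF4 (barF4 s) * certF4.A γ (barF4 s)) := by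
  convert tor2 (T := stbF4 φ) (Q := fun r => 2 ^ m * lamF4 r) (certF4.sys_φ_inj F) h (fun _ _ => hK _) isogF4.bar_bar
    (fun r t => by
      rw [fF4, fF4, map_pow, ← pow_mul]; exact (congrArg _ (isogF4.lam_mul r)).trans (h3 t))
    (fun r t => by rw [fF4, hφ, ← pow_mul]; rfl) γ using 3
  push_cast; rw [mul_assoc]; rfl

theorem exF (hK : (stbF4 φ).Good K) (h3 : ∀ t, φ (φ t) ^ 2 = t) (i : Nd chevF4) :
    ∃ x ∈ K, x ∈ (certF4.sys F).U (Rp (stbF4 φ) i) ∧ x ≠ 1 :=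
  ex_of_card Finite.one_lt_card (fun _ hw e => cardUw_F4 hK h3 hw e) i

theorem unitF : ∀ r : Rt chevF4, (r : ℕ) ∈ [27, 28, 29, 33, 34, 35, 36, 37, 38, 39, 40, 44] →
    ∃ γ, certF4.A γ r = 1 ∧ certF4.A γ (barF4 r) = 0 := by decide +kernel

/-- different directions -/
abbrev difF (r s : Rt chevF4) : Prop := ∃ γ, (certF4.A γ r = 0 ∧ certF4.A γ (barF4 r) = 0) ∧
  (certF4.A γ s ≠ 0 ∨ lamF4 (barF4 s) * certF4.A γ (barF4 s) ≠ 0) ∧ |certF4.A γ s| ≤ 1 ∧
    |lamF4 (barF4 s) * certF4.A γ (barF4 s)| ≤ 2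

theorem σ_pwF {l : List ℕ} (h : (∀ r ∈ l, r < 48) ∧ eqW chevF4 (l.map tabTF4.ρ) l = true) :
    (stbF4 φ).σ (pw (certF4.sys F) l) = pw (certF4.sys F) l :=
  (Stb.σ_pw (T := stbF4 φ) (fun _ => rfl) (by change ∀ r, (barF4 r : ℕ) = _; decide +kernel) h.1).trans (eqW_sound h.2)

variable (h : Stem K θ) (hG : (stbF4 φ).Good K) (hK : ∀ g, (stbF4 φ).σ g = g → g ∈ K) (hφ : ∀ t, φ t = t ^ 2 ^ m)
  (hF : Nat.card F = 2 ^ (2 * m + 1)) (hm : 1 ≤ m)
include h hG hK hφ hF hm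

omit hG in
theorem sepF {r s : Rt chevF4} (h1 : difF r s) : Sep (certF4.sys F) θ 2 r s := by
  obtain ⟨γ, h1, h2, h4, h5⟩ := h1
  have : (2 : ℤ) ≤ 2 ^ m := le_self_pow₀ one_le_two (by omega)
  refine (torF h hK hφ (frobp hφ hF) γ).sep_left (by simp [h1]) ?_
  rw [hF, pow_succ, mul_comm 2, pow_mul]
  push_cast
  exact not_dvd_of_digits (by omega) h2 (by nlinarith)

theorem szF : SzP (certF4.sys F) θ [26, 34, 36, 42] [36, 42] := by
  set S := certF4.sys F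
  have hc := h.cen
  have h5 := fun e => hG.fix _ (h.mem e)
  obtain ⟨a, ha⟩ := h.surj _ (hK _ (σ_pwF (l := [26, 34, 36]) (by decide +kernel)))
  obtain ⟨x, hx⟩ := h.surj _ (hK _ (σ_pwF (l := [24, 33]) (by decide +kernel)))
  obtain ⟨y, hy⟩ := h.surj _ (hK _ (σ_pwF (l := [29, 41, 47]) (by decide +kernel)))
  have mx : x ∈ XL S θ [24, 33] := by rw [mem_comap, hx]; exact pw_mem_U fun _ h _ => h
  have my : y ∈ XL S θ [29, 41, 47] := by rw [mem_comap, hy]; exact pw_mem_U fun _ h _ => h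
  have hz : θ ⁅x, y⁆ = pw S [36, 42] := by
    rw [map_commutatorElement, hx, hy, commutatorElement_def, ← pw_reverse, ← pw_reverse, ← pw_append, ← pw_append, ← pw_append]
    exact eqW_sound (by decide +kernel)
  have t1 : Top certF4 fF (rF 33) (barF4 (rF 33)) [24, 33] [] := by decide +kernel
  have t3 : Top certF4 fF (rF 38) (barF4 (rF 38)) [38, 43] [] := by decide +kernel
  have c := comm_of_sep 2 hc t1.crd t3.crd (fun a ha b hb => commute_Up 2 (by decide +kernel) ha hb)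
    (fun a ha e b _ => commute_ker hc (Top.eq_one (T := stbF4 φ) t1 admF ha (h5 a) e) b)
    (fun a ha e b _ => (commute_ker hc (Top.eq_one (T := stbF4 φ) t3 admF ha (h5 a) e) b).symm)
    (sepF h hK hφ hF hm (by decide +kernel))
  refine ⟨⟨a, by rw [mem_comap, ha]; exact pw_mem_U fun _ h _ => List.mem_append_left [42] h, fun h => ?_⟩, ⁅x, y⁆,
    by rw [mem_comap, hz]; exact pw_mem_U fun _ h _ => h, fun h => ?_, fun u hu => ?_⟩
  · have h1 := S.cd_eq_zero (f := fF) (k := 14) (r := rF 26) (by omega) (by simp only [Set.mem_ofPred_eq]; decide +kernel)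
      (by decide +kernel) h
    have h2 := (cd_wd S (f := fF) (k := 6) (A := {r | (r : ℕ) ∈ [26, 34, 36]}) (r := rF 26) (w := [(26, 1), (34, 1), (36, 1)]) (by omega)
      (by simp only [Set.mem_ofPred_eq]; decide +kernel) (by decide +kernel) (by simp)).2
    rw [ha] at h1
    simpa using h2.symm.trans h1
  · have h2 := (cd_wd S (f := fF) (k := 14) (A := {r | (r : ℕ) ∈ [36, 42]}) (r := rF 36) (w := [(36, 1), (42, 1)]) (by omega)
      (by simp only [Set.mem_ofPred_eq]; decide +kernel) (by decide +kernel) (by simp)).2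
    rw [show wd S [(36, 1), (42, 1)] = 1 from hz.symm.trans h, S.cd_one] at h2
    simp at h2
  · have h1 : ⁅y⁻¹, u⁆ ∈ XL S θ [38, 43] := by
      rw [mem_comap, map_commutatorElement]
      refine S.U_mono ?_ (S.mem_inter (Cert.closed_ge _ (by omega)) (Cert.nil_of_fun _ fun _ h => h) (Cert.closed_ge _ (by omega))
        (Cert.nil_of_fun _ fun _ h => h) (comm_ge S (wf _ [2, -1, -2, 3]) le_rfl one_pos
          (S.U_mono (by simp only [Set.ofPred_subset_ofPred]; decide +kernel) ((XL S θ _).inv_mem my))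
          (S.U_mono (by simp only [Set.ofPred_subset_ofPred]; decide +kernel) hu))
        (by rw [← commutatorElement_inv]; exact inv_mem (comm_ge S (wf _ [-1, 1, 1, -1]) le_rfl one_pos
          (S.U_mono (by simp only [Set.ofPred_subset_ofPred]; decide +kernel) hu)
          (S.U_mono (by simp only [Set.ofPred_subset_ofPred]; decide +kernel) ((XL S θ _).inv_mem my)))))
      simp only [Set.subset_def, Set.mem_inter_iff, Set.mem_ofPred_eq]; decide +kernel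
    rw [Commute, SemiconjBy, ← mul_inv_eq_iff_eq_mul, conjugate_commutatorElement,
      comm_eq_of_map_eq hc (a' := x) (b' := y * ⁅y⁻¹, u⁆) (by
        simp [(commute_Up 2 (by decide +kernel) hu mx).eq]) (by simp [commutatorElement_def, mul_assoc]),
      commutatorElement_mul_right_eq_mul_conj, (c x mx _ h1).commutator_eq]
    simp

theorem pairF : ∀ r : Rt chevF4, (r : ℕ) ∈ [27, 28, 29, 33, 34, 35, 36, 37, 38, 39, 40, 44] →
    ∀ s : Rt chevF4, (s : ℕ) ∈ [27, 28, 29, 33, 34, 35, 36, 37, 38, 39, 40, 44] → r = s ∨ difF r s ∨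
      ∃ x ∈ [([], [26, 34, 36, 42], [36, 42]), ([0, 3], [25, 27, 28, 30], [28, 30]), ([1, 2, 1, 2], [31, 35, 40, 46], [40, 46]),
        ([0, 3, 1, 2, 1, 2], [29, 41, 44, 47], [44, 47])],
        Top certF4 fF r (barF4 r) x.2.1 x.2.2 ∧ Top certF4 fF s (barF4 s) x.2.2 [] ∨
        Top certF4 fF s (barF4 s) x.2.1 x.2.2 ∧ Top certF4 fF r (barF4 r) x.2.2 [] := by decide +kernel

theorem kerF_two [Finite E] (hp : IsPGroup 2 θ.ker) : θ.ker = ⊥ := by
  have h3 := frobp hφ hF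
  have t := torF h hK hφ h3
  refine h.ker_eq_bot_live 2 (certF4.sys_φ_inj F) hG (exF hG h3) hp admF (fun _ => ⊥) (fun _ _ => rfl)
    (fun r hr => ?_) fun r s hr hs => ?_
  · obtain ⟨γ, h1, h2⟩ := unitF r ((liveF r).1 hr)
    refine (t γ).root ?_
    have : 2 ^ 3 ≤ 2 ^ (2 * m + 1) := Nat.pow_le_pow_right two_pos (by omega)
    simp only [h1, h2, mul_zero, add_zero]
    exact fun h => by have := Int.le_of_dvd one_pos h; omega
  · rw [liveF] at hr hs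
    obtain ⟨γ, h1, h2⟩ := unitF r hr
    obtain ⟨δ, h4, h5⟩ := unitF s hs
    obtain rfl | h6 | ⟨x, hx, h6⟩ := pairF h hG hK hφ hF hm r hr s hs
    · refine Or.inl ((t γ).sep fun k => ?_)
      obtain ⟨c, hc⟩ := exists_pow_sum_ne le_rfl hF [k, 0] (by simp) (by simp; omega)
      exact ⟨c, by rw [← zpow_natCast] at hc; simpa [h1, h2] using hc⟩
    · exact Or.inl (sepF h hK hφ hF hm h6)
    obtain ⟨n, w, hn, e⟩ := exists_conj h hG ssF4 x.1 (by clear h6; revert x; decide +kernel) (by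
      clear h6; revert x; change ∀ x ∈ _, ∀ r s : Rt chevF4, _ → (barF4 s : ℕ) = actN _ _ (barF4 r); decide +kernel)
    have h7 := (szF h hG hK hφ hF hm).conj (A' := x.2.1) (B' := x.2.2) hn e (by clear h6 e; revert x; decide +kernel)
    have h8 := fun e => hG.fix _ (h.mem e)
    exact h6.elim (fun h6 => (h7.pair admF h8 h6.1 h6.2 (t γ) (by simp [h1, h2]) (t δ) (by simp [h4, h5]) _ _).1)
      fun h6 => (h7.pair admF h8 h6.1 h6.2 (t δ) (by simp [h4, h5]) (t γ) (by simp [h1, h2]) _ _).2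

end Cfsg.Agent.TwM
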