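import Cfsg.Agent.TwM.Inst

set_option autoImplicit false

/-! Local commutation arguments in central extensions of twisted groups. -/

namespace Cfsg.Agent.TwM

open Subgroup Cfsg.Agent.Cover Cfsg.Lie Cfsg.Lie.ChevalleyDatum Cfsg.Agent.Chev Cfsg.Agent.Tw Equiv
open scoped commutatorElement

variable {E : Type*} [Group E] {D : ChevalleyDatum} {C : Cert D} {F : Type*} [Field F] {G : Type*} [Group G]
  {S : Sys C F G} {T : Stb S} {θ : E →* G} {K : Subgroup G} {f : (Nd D → ℤ) →ₗ[ℤ] ℤ}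

variable (S θ) in
/-- preimage of a unipotent subgroup -/
abbrev XL (l : List ℕ) : Subgroup E := (S.U {r | (r : ℕ) ∈ l}).comap θ

theorem exists_conj (h : Stem K θ) (hK : T.Good K) {g : ℕ → ℕ → ℕ} (hg : ∀ (i : Nd D) (r : Rt D), (C.ss i r : ℕ) = g i r)
    (l : List ℕ) (hl : allL l (fun i => Nat.blt i D.rank) = true)
    (h1 : ∀ r s : Rt D, (s : ℕ) = actN g l r → (T.ρ s : ℕ) = actN g l (T.ρ r)) :
    ∃ n w, S.Over (θ n) w ∧ ∀ r : Rt D, (w r : ℕ) = actN g l r := by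
  obtain ⟨w, hw, e⟩ := Cert.exists_W_act hg l hl
  obtain ⟨m, hm, h2⟩ := hK.ex_over w hw (Equiv.ext fun r => by
    obtain ⟨r, rfl⟩ := T.ρ.surjective r
    exact Fin.ext (by rw [T.cj_apply, h1 r _ (e r), e]))
  obtain ⟨n, rfl⟩ := h.surj m hm
  exact ⟨n, w, h2, e⟩

theorem conj_XL {n x : E} {w : Perm (Rt D)} (hn : S.Over (θ n) w) {a : ℕ → ℕ} (e : ∀ r : Rt D, (w r : ℕ) = a r)
    {A B : List ℕ} (h : ∀ r ∈ A, a r ∈ B) (hx : x ∈ XL S θ A) : n * x * n⁻¹ ∈ XL S θ B := by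
  rw [mem_comap, map_mul, map_mul, map_inv]
  exact hn.acts.conj_mem (fun r hr => by rw [Set.mem_ofPred_eq, e]; exact h r hr) hx

theorem conj_XL' {n x : E} {w : Perm (Rt D)} (hn : S.Over (θ n) w) {a : ℕ → ℕ} (e : ∀ r : Rt D, (w r : ℕ) = a r)
    {A B : List ℕ} (h : ∀ r : Rt D, a r ∈ B → (r : ℕ) ∈ A) (hx : x ∈ XL S θ B) : n⁻¹ * x * n ∈ XL S θ A := by
  rw [mem_comap, map_mul, map_mul, map_inv]
  exact hn.acts.inv_conj_mem (fun r hr => h _ (by rw [← e]; simpa using hr)) hx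

variable (S θ) in
/-- `r` gives a coordinate on `A` -/
def Crd (A : Subgroup E) (r : Rt D) : Prop := Add A (fun e => S.cd r (θ e)) ∧
  ∀ t, θ t ∈ S.H → ∀ a ∈ A, t * a * t⁻¹ ∈ A ∧ S.cd r (θ (t * a * t⁻¹)) = S.chi (θ t) r * S.cd r (θ a)

theorem crd_U {k : ℤ} (hk : 0 ≤ k) {A : Set (Rt D)} (hA : ∀ r ∈ A, k ≤ f (C.rc r)) {r : Rt D} (hr : f (C.rc r) < 2 * k) :
    Crd S θ ((S.U A).comap θ) r :=
  ⟨fun a ha b hb => by simp only [map_mul]; exact S.cd_mul hk hA hr ha hb, fun t ht a ha => by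
    simp only [mem_comap, map_mul, map_inv]; exact ⟨Sys.H_conj_U ht ha, cd_conj_H S f hk hA hr ht ha⟩⟩

theorem comm_of_sep [Finite F] (p : ℕ) [Fact p.Prime] [CharP F p] (hc : θ.ker ≤ center E) {A B : Subgroup E} {r s : Rt D}
    (hA : Crd S θ A r) (hB : Crd S θ B s) (hAB : ∀ a ∈ A, ∀ b ∈ B, Commute (θ a) (θ b))
    (kA : ∀ a ∈ A, S.cd r (θ a) = 0 → ∀ b ∈ B, Commute a b) (kB : ∀ b ∈ B, S.cd s (θ b) = 0 → ∀ a ∈ A, Commute a b)
    (hs : Sep S θ p r s) : ∀ a ∈ A, ∀ b ∈ B, Commute a b := by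
  have n : ∀ A : Subgroup E, A ≤ normalizer ((⊥ : Subgroup E) : Set E) := fun A => by rw [normalizer_eq_top]; exact le_top
  have := comm_le_of_sep p hc (bot_inf_eq _) (n A) (n B)
    (commutator_le.2 fun a ha b hb => mem_sup_right (comm_mem_ker (hAB a ha b hb))) hA.1 hB.1
    (fun a ha e b hb => (kA a ha e b hb).commutator_eq) (fun b hb e a ha => (kB b hb e a ha).commutator_eq) fun k => by
      obtain ⟨t, ht, e⟩ := hs k
      refine ⟨t, n ⊤ trivial, _, _, e, hA.2 t ht, fun b hb => ?_⟩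
      have h1 := (hB.2 t⁻¹ (by rw [map_inv]; exact inv_mem ht) b hb).1
      rw [inv_inv] at h1
      exact ⟨h1, by rw [← (hB.2 t ht _ h1).2]; simp [mul_assoc]⟩
  exact fun a ha b hb => commutatorElement_eq_one_iff_commute.1 (this (commutator_mem_commutator ha hb))

theorem commute_ker (hc : θ.ker ≤ center E) {a : E} (h : θ a = 1) (b : E) : Commute a b :=
  (mem_center_iff.1 (hc h) b).symm

theorem Ul_le_of_dead (hf : ∀ r s, f (C.rc r) = f (C.rc s) → r = s) {j k : ℤ} (hj : 0 < j) (hjk : j ≤ k)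
    (h : ∀ r, j ≤ f (C.rc r) → f (C.rc r) < k → Covers S θ f r ⊥) : Ul S θ f j ≤ Ul S θ f k := by
  induction k, hjk using Int.leInduction with
  | base => exact le_rfl
  | succ k hk ih =>
    refine (ih fun r h1 h2 => h r h1 (by omega)).trans ?_
    by_cases e : ∃ r, f (C.rc r) = k
    · obtain ⟨r, rfl⟩ := e
      simpa using (h r hk (by omega)).le_sup hf (by omega)
    · push Not at e; exact (Ul_succ e).le

theorem Adm.covers_dead (hf : Adm T f) (h5 : ∀ e, T.σ (θ e) = θ e) {r : Rt D} (h4 : 0 < f (C.rc r)) (h3 : ¬ Live T f r) :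
    Covers S θ f r ⊥ := by
  simp only [Live, h4, true_and, not_and_or, not_le] at h3
  exact h3.elim (TwM.covers_dead h5 h4 fun s hs => (hf.2.2 r h4 s hs).1)
    (TwM.covers_dead (fix_symm h5) h4 fun s hs => (hf.2.2 r h4 s hs).2)

theorem Ul_comm_of_sep [Finite F] (p : ℕ) [Fact p.Prime] [CharP F p] (hc : θ.ker ≤ center E) (hf : Adm T f)
    (h5 : ∀ e, T.σ (θ e) = θ e) {B : Subgroup E} {s : Rt D} (hB : Crd S θ B s) (kB : ∀ b ∈ B, S.cd s (θ b) = 0 → θ b = 1)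
    {j : ℤ} (hj : 0 < j) (hAB : ∀ a ∈ Ul S θ f j, ∀ b ∈ B, Commute (θ a) (θ b))
    (hs : ∀ r, j ≤ f (C.rc r) → Live T f r → Sep S θ p r s) : ∀ a ∈ Ul S θ f j, ∀ b ∈ B, Commute a b := by
  refine down_ind (f := f) (C := C) (P := fun k => j ≤ k → ∀ a ∈ Ul S θ f k, ∀ b ∈ B, Commute a b)
    (fun k hk _ a ha b _ => commute_ker hc ((Ul_top hk).le ha) b) (fun k hk ih hjk => ?_) j hj le_rfl
  replace ih := ih (by omega)
  by_cases e : ∃ r, f (C.rc r) = k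
  swap
  · push Not at e; rwa [Ul_succ e]
  obtain ⟨r, rfl⟩ := e
  by_cases h : Live T f r
  · exact comm_of_sep p hc (crd_U hk.le (fun _ h => h) (by omega)) hB (fun a ha => hAB a (Ul_anti hjk ha))
      (fun a ha e => ih a ((Ul_ker hf.1 hk ha).1 e)) (fun b hb e a _ => (commute_ker hc (kB b hb e) a).symm) (hs r hjk h)
  · exact fun a ha => ih a (by simpa using (hf.covers_dead h5 hk h).le_sup hf.1 hk ha)

theorem eq_one_of_cd_orb {A : Set (Rt D)} {r : Rt D} (hr : 0 < C.ht r)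
    (hA : ∀ s ∈ A, C.ht s = C.ht r ∧ T.ρ s ∈ A ∧ (s = r ∨ s = T.ρ r ∨ s = T.ρ (T.ρ r)) ∧ ∀ t ∈ A, C.N s t = 0) (hrA : r ∈ A)
    {u : G} (hu : u ∈ S.U A) (e : T.σ u = u) (h : S.cd r u = 0) : u = 1 := by
  have h1 : ∀ s ∈ A, C.ht r ≤ Cert.lev ∅ (C.rc s) := fun s hs => by rw [C.lev_empty, (hA s hs).1]
  have h2 : ∀ s ∈ A, Cert.lev ∅ (C.rc s) < 2 * C.ht r := fun s hs => by rw [C.lev_empty, (hA s hs).1]; omega
  have h3 : ∀ s ∈ A, S.cd s u = 0 → S.cd (T.ρ s) u = 0 := fun s hs h => by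
    have := T.cd_σ hr.le hr.le h1 (fun s hs => h1 _ (hA s hs).2.1) (h2 s hs) (h2 _ (hA s hs).2.1) hu
    rwa [e, h, map_zero, mul_zero] at this
  rw [← mem_bot, ← S.U_empty]
  refine peel hr.le (fun a ha b hb u e => absurd ((hA a ha).2.2.2 b hb) (C.N_ne_zero_of_add e))
    (Cert.nil_of_fun _ fun s hs => hr.trans_le (h1 s hs)) h1 hu fun s hs => Or.inr ⟨h2 s hs, ?_⟩
  rcases (hA s hs).2.2.1 with rfl | rfl | rfl
  exacts [h, h3 _ hrA h, h3 _ (hA r hrA).2.1 (h3 _ hrA h)]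

theorem mem_zpowers_invol {y g : E} (h : y * y = 1) (hg : g ∈ zpowers y) : g = 1 ∨ g = y := by
  obtain ⟨n, rfl⟩ := hg
  obtain ⟨k, rfl | rfl⟩ := n.even_or_odd' <;> simp [zpow_add, zpow_mul, pow_two, h]

end Cfsg.Agent.TwM
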